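import Cfsg.Agent.CentralType.Ramified
import Mathlib.GroupTheory.Sylow
import Mathlib.GroupTheory.GroupAction.Quotient

/-!
# Cyclic Sylow subgroups of quotients of groups of central type
-/

set_option autoImplicit false
set_option linter.style.haveILetI false
set_option linter.unusedSectionVars false

open scoped ComplexConjugate

namespace Cfsg.Agent.CentralType

open Cfsg Cfsg.Agent.Char

universe u

variable {H : Type u} [Group H] [Finite H]

theorem relIndex_dvd_index {N : Type u} [Group N] [Finite N] (M A : Subgroup N) [A.Normal] :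
    M.relIndex A ∣ M.index := by
  have h1 := Subgroup.relIndex_mul_index (inf_le_left : M ⊓ A ≤ M)
  have h2 := Subgroup.relIndex_mul_index (inf_le_right : M ⊓ A ≤ A)
  rw [Subgroup.inf_relIndex_left] at h1
  rw [Subgroup.inf_relIndex_right] at h2
  obtain ⟨c, hc⟩ := Subgroup.relIndex_dvd_index_of_normal A M
  refine ⟨c, Nat.eq_of_mul_eq_mul_left
    (Nat.pos_of_ne_zero (Subgroup.index_ne_zero_of_finite : (A.subgroupOf M).index ≠ 0)) ?_⟩
  change A.relIndex M * M.index = A.relIndex M * (M.relIndex A * c)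
  rw [h1, ← h2, hc]
  ring

/-- The orbit of a normal subgroup of order prime to the length of a transitive orbit. -/
theorem le_of_coprime_index {N : Type u} [Group N] [Finite N] (A M : Subgroup N) [A.Normal]
    (hcop : Nat.Coprime (M.relIndex A) M.index) : A ≤ M := by
  refine Subgroup.relIndex_eq_one.1 ?_
  have h1 : M.relIndex A ∣ M.index := relIndex_dvd_index M A
  exact Nat.eq_one_of_dvd_coprimes hcop (dvd_refl _) h1

theorem exists_complement (Z : Subgroup H) [Z.Normal] {χ : H → ℂ} (hχ : IsIrrCharacter H χ)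
    {θ : Z → ℂ} (hθ : IsIrrCharacter Z θ) {e : ℕ} (he : e ^ 2 = Z.index)
    (hres : ∀ z : Z, χ z = (e : ℂ) * θ z) (K : Subgroup H) [K.Normal] (hZK : Z ≤ K) (p : ℕ)
    [Fact p.Prime] (P : Sylow p (H ⧸ K)) (hcyc : IsCyclic P) :
    ∃ M : Subgroup (H ⧸ K), M.IsComplement' (P : Subgroup (H ⧸ K)) := by
  classical
  have hp : p.Prime := Fact.out
  letI := Fintype.ofFinite H
  have he0 : e ≠ 0 := by
    rintro rfl
    exact Subgroup.index_ne_zero_of_finite (he.symm.trans (by simp))
  have hinvθ : ∀ (g : H) (z : Z), CharInd.conjChar Z g θ z = θ z := by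
    intro g z
    refine mul_left_cancel₀ (Nat.cast_ne_zero.2 he0 : (e : ℂ) ≠ 0) ?_
    rw [CharInd.conjChar_apply, ← hres, ← hres]
    exact irr_isClassFunction hχ z g
  obtain ⟨Sbar⟩ := (inferInstance : Nonempty (Sylow p (H ⧸ Z)))
  set f := QuotientGroup.mk' Z with hf
  have hfs : Function.Surjective f := QuotientGroup.mk'_surjective Z
  set S := (Sbar : Subgroup (H ⧸ Z)).comap f with hS
  have hZS : Z ≤ S := fun z hz => by
    show f z ∈ (Sbar : Subgroup (H ⧸ Z))
    rw [show f z = 1 from (QuotientGroup.eq_one_iff z).2 hz]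
    exact one_mem _
  set R := S ⊓ K with hR
  have hZR : Z ≤ R := le_inf hZS hZK
  have hRS : R ≤ S := inf_le_left
  haveI : (Z.subgroupOf S).Normal := inferInstance
  haveI : (R.subgroupOf S).Normal := by
    rw [hR, Subgroup.inf_subgroupOf_left]
    infer_instance
  -- index of Z in S
  obtain ⟨s, hs⟩ := IsPGroup.iff_card.1 Sbar.isPGroup'
  have hZidx : (Z.subgroupOf S).index = p ^ s := by
    show Z.relIndex S = p ^ s
    rw [← hs, hS]
    have h1 := Subgroup.relIndex_comap (⊥ : Subgroup (H ⧸ Z)) f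
      ((Sbar : Subgroup (H ⧸ Z)).comap f)
    rw [MonoidHom.comap_bot, QuotientGroup.ker_mk'] at h1
    rw [h1, Subgroup.map_comap_eq_self_of_surjective hfs, Subgroup.relIndex_bot_left]
  have hSidx : ¬ p ∣ S.index := by
    rw [hS, Subgroup.index_comap_of_surjective _ hfs]
    exact Sbar.not_dvd_index
  have he2 : e ^ 2 = p ^ s * S.index := by
    rw [he, ← Subgroup.relIndex_mul_index hZS, ← hZidx]
    rfl
  letI := Fintype.ofFinite S
  let ζ := Subgroup.subgroupOfEquivOfLe hZS
  letI := Fintype.ofFinite (Z.subgroupOf S)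
  let θS : Z.subgroupOf S → ℂ := fun z => θ (ζ z)
  have hθS : IsIrrCharacter (Z.subgroupOf S) θS :=
    CharInd.irr_comp_surjective ζ.toMonoidHom ζ.surjective hθ
  have hinvS : ∀ g : S, CharInd.conjChar (Z.subgroupOf S) g θS = θS := fun g => funext fun z =>
    hinvθ (g : H) (ζ z)
  obtain ⟨φ, a, hφ, ha, -, hφZ, -⟩ := exists_fullyRamified_constituent hp (Z.subgroupOf S) hZidx
    hθS hinvS (CharInd.isCharacter_res S (isCharacter_of_irr hχ))
    (fun h hh => BlkChar.fullyRamified_vanish hχ hθ he hres (fun hz => hh hz))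
    (fun z => hres (ζ z)) he2 hSidx
  -- the cyclic quotient
  set g := QuotientGroup.mk' K with hg
  have hgs : Function.Surjective g := QuotientGroup.mk'_surjective K
  let π : H ⧸ Z →* H ⧸ K := QuotientGroup.map Z K (MonoidHom.id H) hZK
  have hπs : Function.Surjective π := fun q => by
    obtain ⟨x, rfl⟩ := QuotientGroup.mk_surjective q
    exact ⟨(x : H ⧸ Z), rfl⟩
  set PS := Sbar.mapSurjective hπs with hPS
  have hSmap : S.map g = (PS : Subgroup (H ⧸ K)) := by
    rw [hPS, Sylow.coe_mapSurjective]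
    have h1 : g = π.comp f := rfl
    rw [h1, ← Subgroup.map_map, hS, Subgroup.map_comap_eq_self_of_surjective hfs]
  have hPScyc : IsCyclic PS := by
    haveI := hcyc
    exact isCyclic_of_surjective (P.equiv PS).toMonoidHom (P.equiv PS).surjective
  have hRcard : (R.subgroupOf S).index = Nat.card PS := by
    show R.relIndex S = _
    rw [hR, Subgroup.inf_relIndex_left]
    have h1 := Subgroup.relIndex_comap (⊥ : Subgroup (H ⧸ K)) g S
    rw [MonoidHom.comap_bot, hg, QuotientGroup.ker_mk', ← hg, hSmap,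
      Subgroup.relIndex_bot_left] at h1
    exact h1
  have hScyc : IsCyclic (S ⧸ R.subgroupOf S) := by
    haveI := hPScyc
    refine isCyclic_of_injective (QuotientGroup.lift (R.subgroupOf S)
      ((g.comp S.subtype).codRestrict (PS : Subgroup (H ⧸ K))
        (fun x => hSmap ▸ Subgroup.mem_map_of_mem g x.2)) (fun x hx => ?_)) ?_
    · exact Subtype.ext ((QuotientGroup.eq_one_iff _).2 (Subgroup.mem_inf.1 hx).2)
    · rw [← MonoidHom.ker_eq_bot_iff, eq_bot_iff]
      intro q
      refine QuotientGroup.induction_on q fun x hx => ?_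
      have hx' : g (x : H) = 1 := congrArg Subtype.val hx
      exact (QuotientGroup.eq_one_iff _).2 ⟨x.2, (QuotientGroup.eq_one_iff _).1 hx'⟩
  letI := Fintype.ofFinite (R.subgroupOf S)
  have hZR' : Z.subgroupOf S ≤ R.subgroupOf S := fun z hz => hZR hz
  obtain ⟨ψ, hψ, hψ0, hstab, hall⟩ := regular_orbit (Z.subgroupOf S) (R.subgroupOf S) hZR' hScyc
    hθS hinvS hφ ha hφZ
  -- transport to R
  let ε := Subgroup.subgroupOfEquivOfLe hRS
  let ψ₀ : R → ℂ := fun r => ψ (ε.symm r)
  have hψ₀ : IsIrrCharacter R ψ₀ := CharInd.irr_comp_surjective ε.symm.toMonoidHom ε.symm.surjective hψ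
  set N := Subgroup.normalizer (R : Set H) with hN
  have hSN : S ≤ N := fun x hx => Subgroup.le_normalizer_of_normal_subgroupOf hRS hx
  let R' := R.subgroupOf N
  haveI : R'.Normal := Subgroup.normal_in_normalizer
  let η := Subgroup.subgroupOfEquivOfLe (Subgroup.le_normalizer : R ≤ N)
  let ψN : R' → ℂ := fun r => ψ₀ (η r)
  have hψN : IsIrrCharacter R' ψN := CharInd.irr_comp_surjective η.toMonoidHom η.surjective hψ₀
  letI := Fintype.ofFinite N
  let M₀ := CharInd.conjStab R' ψN
  have hSeq : ∀ (x : S) (n : N), (n : H) = x →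
      (CharInd.conjChar (R.subgroupOf S) x ψ = fun r => CharInd.conjChar R' n ψN (η.symm (ε r))) := by
    intro x n hxn
    funext r
    show ψ _ = ψ _
    refine congrArg ψ (Subtype.ext (Subtype.ext ?_))
    show (x : H) * ((r : S) : H) * (x : H)⁻¹ = (n : H) * ((r : S) : H) * (n : H)⁻¹
    rw [hxn]
  have htrans : ∀ n : N, ∃ x : S, CharInd.conjChar R' n ψN =
      CharInd.conjChar R' ⟨x, hSN x.2⟩ ψN := by
    intro n
    let ξ : R.subgroupOf S → ℂ := fun r => CharInd.conjChar R' n ψN (η.symm (ε r))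
    have hξ : IsIrrCharacter (R.subgroupOf S) ξ :=
      CharInd.irr_comp_surjective (ε.trans η.symm).toMonoidHom (ε.trans η.symm).surjective
        (CharInd.conjChar_irr R' n hψN)
    obtain ⟨x, hx⟩ := hall ξ hξ (by
      refine fun h0 => hψ0 ?_
      rw [← h0]
      unfold classInner
      congr 1
      let c : Z.subgroupOf S ≃ Z.subgroupOf S :=
        ζ.toEquiv.trans ((MulAut.conjNormal (n : H) : MulAut Z).toEquiv.trans ζ.symm.toEquiv)
      refine (Fintype.sum_equiv c _ _ fun z => ?_).symm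
      have h1 : θS (c z) = θS z := by
        show θ (ζ (ζ.symm _)) = θ (ζ z)
        rw [ζ.apply_symm_apply]
        exact hinvθ (n : H) (ζ z)
      rw [h1]
      congr 1)
    refine ⟨x, funext fun r => ?_⟩
    have h1 := congrFun (hx.trans (hSeq x ⟨x, hSN x.2⟩ rfl)) (ε.symm (η r))
    simpa [ξ] using h1
  have hM₀S : ∀ x : S, (⟨x, hSN x.2⟩ : N) ∈ M₀ ↔ (x : H) ∈ R := by
    intro x
    constructor
    · intro hx
      have h1 : x ∈ CharInd.conjStab (R.subgroupOf S) ψ := by
        rw [CharInd.mem_conjStab, hSeq x ⟨x, hSN x.2⟩ rfl, (CharInd.mem_conjStab R').1 hx]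
        funext r
        simp [ψN, ψ₀]
      rw [hstab] at h1
      exact h1
    · intro hx
      exact CharInd.le_conjStab R' (irr_isClassFunction hψN) (show (⟨x, hSN x.2⟩ : N) ∈ R' from hx)
  have hidx : M₀.index = (R.subgroupOf S).index := by
    have h1 : S.subgroupOf N ⊔ M₀ = ⊤ := eq_top_iff.2 fun n _ => by
      obtain ⟨x, hx⟩ := htrans n
      have h2 : n * (⟨x, hSN x.2⟩ : N)⁻¹ ∈ M₀ := by
        rw [CharInd.mem_conjStab, CharInd.conjChar_mul, hx, ← CharInd.conjChar_mul,
          mul_inv_cancel, CharInd.conjChar_one]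
      rw [show n = n * (⟨x, hSN x.2⟩ : N)⁻¹ * ⟨x, hSN x.2⟩ by simp]
      exact mul_mem (Subgroup.mem_sup_right h2)
        (Subgroup.mem_sup_left (show (⟨x, hSN x.2⟩ : N) ∈ S.subgroupOf N from x.2))
    have h3 : M₀.index = M₀.relIndex (S.subgroupOf N) := by
      -- count the orbit through S
      rw [← CharInd.card_conjClass]
      have h4 : CharInd.conjClass R' ψN =
          (Finset.univ : Finset (S.subgroupOf N)).image
            (fun x : S.subgroupOf N => CharInd.conjChar R' (x : N) ψN) := by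
        ext ξ
        simp only [CharInd.mem_conjClass, Finset.mem_image, Finset.mem_univ, true_and]
        constructor
        · rintro ⟨n, rfl⟩
          obtain ⟨x, hx⟩ := htrans n
          exact ⟨⟨⟨x, hSN x.2⟩, x.2⟩, hx.symm⟩
        · rintro ⟨x, rfl⟩
          exact ⟨x, rfl⟩
      rw [h4, Subgroup.relIndex, Subgroup.index_eq_card, Nat.card_eq_fintype_card, ← Finset.card_univ]
      symm
      refine Finset.card_bij (fun q _ => CharInd.conjChar R' ((q.out : S.subgroupOf N) : N)⁻¹ ψN)
        (fun q _ => Finset.mem_image.2 ⟨(q.out)⁻¹, Finset.mem_univ _, rfl⟩) ?_ ?_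
      · intro q _ q' _ h
        rw [← q.out_eq', ← q'.out_eq', QuotientGroup.eq, Subgroup.mem_subgroupOf]
        rw [CharInd.mem_conjStab]
        rw [Subgroup.coe_mul, Subgroup.coe_inv, CharInd.conjChar_mul, h, ← CharInd.conjChar_mul,
          inv_mul_cancel, CharInd.conjChar_one]
      · intro ξ hξ
        obtain ⟨x, -, rfl⟩ := Finset.mem_image.1 hξ
        refine ⟨QuotientGroup.mk x⁻¹, Finset.mem_univ _, ?_⟩
        obtain ⟨t, ht⟩ := QuotientGroup.mk_out_eq_mul (M₀.subgroupOf (S.subgroupOf N)) x⁻¹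
        rw [ht, Subgroup.coe_mul, mul_inv_rev, Subgroup.coe_inv, inv_inv, CharInd.conjChar_mul]
        exact congrArg (CharInd.conjChar R' _) ((CharInd.mem_conjStab R').1 (M₀.inv_mem t.2))
    rw [h3]
    show (M₀.subgroupOf (S.subgroupOf N)).index = _
    let eS := Subgroup.subgroupOfEquivOfLe hSN
    rw [← Subgroup.index_comap_of_surjective (M₀.subgroupOf (S.subgroupOf N))
      (f := eS.symm.toMonoidHom) eS.symm.surjective]
    congr 1
    ext x
    exact hM₀S x
  -- the normal subgroup N ∩ K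
  let A := K.subgroupOf N
  haveI : A.Normal := inferInstance
  have hR'A : R' ≤ A := fun x hx => (Subgroup.mem_inf.1 (show (x : H) ∈ S ⊓ K from hx)).2
  have hR'M : R' ≤ M₀ := CharInd.le_conjStab R' (irr_isClassFunction hψN)
  have hKR : ¬ p ∣ R.relIndex K := by
    haveI : (K.map f).Normal := Subgroup.Normal.map inferInstance f hfs
    have h1 : R.relIndex K = (Sbar : Subgroup (H ⧸ Z)).relIndex (K.map f) := by
      rw [hR, Subgroup.inf_relIndex_right, hS, Subgroup.relIndex_comap]
    rw [h1]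
    exact fun hd => Sbar.not_dvd_index (hd.trans (relIndex_dvd_index _ _))
  have hAM : A ≤ M₀ := by
    refine le_of_coprime_index A M₀ ?_
    have h1 : M₀.relIndex A ∣ R'.relIndex A := Subgroup.relIndex_dvd_of_le_left A hR'M
    have h2 : R'.relIndex A ∣ R.relIndex K := by
      show (R.comap N.subtype).relIndex (K.comap N.subtype) ∣ _
      rw [Subgroup.relIndex_comap, Subgroup.map_comap_eq, N.range_subtype]
      exact ⟨_, (Subgroup.relIndex_mul_relIndex R (N ⊓ K) K
        (le_inf Subgroup.le_normalizer inf_le_right) inf_le_right).symm⟩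
    obtain ⟨k, hk⟩ := IsPGroup.iff_card.1 PS.isPGroup'
    rw [hidx, hRcard, hk]
    exact (((hp.coprime_iff_not_dvd.2 fun hd => hKR (hd.trans (h1.trans h2))).symm).pow_right k)
  -- Frattini
  have hfrat : N ⊔ K = ⊤ := by
    haveI : (K.map f).Normal := Subgroup.Normal.map inferInstance f hfs
    let T : Sylow p (K.map f) :=
      (Sbar.isPGroup'.comap_subtype (K := K.map f)).toSylow
        (fun hd => Sbar.not_dvd_index (hd.trans (relIndex_dvd_index _ _)))
    have h1 := Sylow.normalizer_sup_eq_top T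
    have h2 : (T : Subgroup (K.map f)).map (K.map f).subtype = (Sbar : Subgroup (H ⧸ Z)) ⊓ K.map f := by
      show ((Sbar : Subgroup (H ⧸ Z)).subgroupOf (K.map f)).map _ = _
      rw [Subgroup.subgroupOf_map_subtype]
    rw [h2] at h1
    have h3 : R = ((Sbar : Subgroup (H ⧸ Z)) ⊓ K.map f).comap f := by
      rw [Subgroup.comap_inf, Subgroup.comap_map_eq, QuotientGroup.ker_mk', sup_of_le_left hZK]
    have h4 : N = (Subgroup.normalizer (((Sbar : Subgroup (H ⧸ Z)) ⊓ K.map f : Subgroup (H ⧸ Z)) : Set (H ⧸ Z))).comap f := by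
      rw [hN, h3, Subgroup.comap_normalizer_eq_of_surjective _ hfs]
    rw [eq_top_iff]
    intro x _
    have h5 : f x ∈ Subgroup.normalizer (((Sbar : Subgroup (H ⧸ Z)) ⊓ K.map f : Subgroup (H ⧸ Z)) : Set (H ⧸ Z)) ⊔ K.map f :=
      h1 ▸ Subgroup.mem_top _
    obtain ⟨u, hu, v, ⟨k, hk, rfl⟩, huv⟩ := Subgroup.mem_sup_of_normal_right.1 h5
    have h6 : x * k⁻¹ ∈ N := by
      rw [h4, Subgroup.mem_comap, map_mul, map_inv, ← huv, mul_inv_cancel_right]
      exact hu
    rw [show x = x * k⁻¹ * k by simp]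
    exact Subgroup.mul_mem_sup h6 hk
  let gN : N →* H ⧸ K := g.comp N.subtype
  have hgNs : Function.Surjective gN := fun q => by
    obtain ⟨x, rfl⟩ := hgs q
    obtain ⟨n, hn, k, hk, rfl⟩ := Subgroup.mem_sup_of_normal_right.1
      (hfrat ▸ Subgroup.mem_top x : x ∈ N ⊔ K)
    refine ⟨⟨n, hn⟩, ?_⟩
    show g n = g (n * k)
    rw [map_mul, show g k = 1 from (QuotientGroup.eq_one_iff k).2 hk, mul_one]
  have hker : gN.ker ≤ M₀ := fun x hx => hAM ((QuotientGroup.eq_one_iff (x : H)).1 hx)
  refine ⟨M₀.map gN, ?_⟩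
  have hMidx : (M₀.map gN).index = Nat.card P := by
    rw [Subgroup.index_map_eq _ hgNs hker, hidx, hRcard]
    exact Nat.card_congr (PS.equiv P).toEquiv
  have hmul : Nat.card (M₀.map gN) * Nat.card P = Nat.card (H ⧸ K) := by
    rw [← hMidx]; exact Subgroup.card_mul_index _
  refine Subgroup.isComplement'_of_coprime hmul ?_
  have hMcard : Nat.card (M₀.map gN) = (P : Subgroup (H ⧸ K)).index :=
    Nat.eq_of_mul_eq_mul_right Nat.card_pos (hmul.trans (Subgroup.index_mul_card _).symm)
  rw [hMcard]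
  exact P.card_coprime_index.symm

end Cfsg.Agent.CentralType
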