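import Cfsg.Agent.BlkChar.FullyRamified
import Cfsg.Agent.CharInd.Clifford
import Cfsg.Agent.CharInd.Correspondence
import Cfsg.Agent.CharDeep.Inter
import Mathlib.GroupTheory.SpecificGroups.Cyclic

/-!
# Fully ramified characters and cyclic quotients
-/

set_option autoImplicit false
set_option linter.style.haveILetI false
set_option linter.unusedSectionVars false

open scoped ComplexConjugate

namespace Cfsg.Agent.CentralType

open Cfsg Cfsg.Agent.Char

universe u

variable {H : Type u} [Group H] [Finite H]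

/-- Inner products with a function vanishing off `Z`. -/
theorem classInner_of_vanish [Fintype H] (Z : Subgroup H) [Fintype Z] {f g : H → ℂ}
    (hf : ∀ h, h ∉ Z → f h = 0) :
    classInner f g = (Nat.card H : ℂ)⁻¹ * ((Nat.card Z : ℂ) *
      classInner (fun z : Z => f z) (fun z : Z => g z)) := by
  classical
  simp only [classInner]
  rw [mul_inv_cancel_left₀ card_ne_zero_complex]
  congr 1
  rw [← Finset.sum_subtype (Finset.univ.filter fun h : H => h ∈ Z) (fun h => by simp)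
    (fun h => f h * conj (g h))]
  refine (Finset.sum_subset (Finset.subset_univ _) fun h _ hh => ?_).symm
  rw [hf h (fun hz => hh (Finset.mem_filter.2 ⟨Finset.mem_univ _, hz⟩)), zero_mul]

theorem constituent_one_le [Fintype H] {F φ : H → ℂ} (hF : IsCharacter H F)
    (hφ : IsIrrCharacter H φ) (h0 : classInner F φ ≠ 0) {a b : ℕ} (ha : φ 1 = a) (hb : F 1 = b) :
    a ≤ b := by
  classical
  obtain ⟨m, hm, hm'⟩ := isCharacter_exists_coeff hF
  have hpos : m ⟨φ, hφ⟩ ≠ 0 := by
    intro h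
    apply h0
    have := hm' ⟨φ, hφ⟩
    rw [h, Nat.cast_zero] at this
    exact this
  choose d hd0 hd using fun ξ : IrrCharacter H => irr_one_pos ξ.2
  have h1 : (b : ℂ) = ((∑ ξ, m ξ * d ξ : ℕ) : ℂ) := by
    rw [← hb, hm]
    simp [Finset.sum_apply, hd]
  have h2 : d ⟨φ, hφ⟩ = a := by exact_mod_cast (hd ⟨φ, hφ⟩).symm.trans ha
  rw [Nat.cast_inj] at h1
  rw [h1, ← h2]
  exact le_trans (Nat.le_mul_of_pos_left _ (Nat.pos_of_ne_zero hpos))
    (Finset.single_le_sum (f := fun ξ => m ξ * d ξ) (fun _ _ => Nat.zero_le _) (Finset.mem_univ _))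

/-- Restricting a character vanishing off `Z` to a subgroup of `p`-power index over `Z`. -/
theorem exists_fullyRamified_constituent {p s m e : ℕ} (hp : p.Prime) (Z : Subgroup H) [Z.Normal]
    (hidx : Z.index = p ^ s) {θ : Z → ℂ} (hθ : IsIrrCharacter Z θ)
    (hinv : ∀ g : H, CharInd.conjChar Z g θ = θ) {F : H → ℂ} (hF : IsCharacter H F)
    (hFv : ∀ h, h ∉ Z → F h = 0) (hFZ : ∀ z : Z, F z = (e : ℂ) * θ z)
    (he : e ^ 2 = p ^ s * m) (hm : ¬ p ∣ m) :
    ∃ (φ : H → ℂ) (a : ℕ), IsIrrCharacter H φ ∧ a ^ 2 = Z.index ∧ 0 < a ∧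
      (∀ z : Z, φ z = (a : ℂ) * θ z) ∧ ∀ h, h ∉ Z → φ h = 0 := by
  classical
  letI := Fintype.ofFinite H
  letI := Fintype.ofFinite Z
  have he0 : e ≠ 0 := by
    rintro rfl
    rw [zero_pow two_ne_zero, eq_comm, mul_eq_zero] at he
    rcases he with h | h
    · exact pow_ne_zero s hp.ne_zero h
    · exact hm (h ▸ dvd_zero p)
  have hF0 : F ≠ 0 := fun h => by
    have h1 := hFZ 1
    rw [h] at h1
    exact mul_ne_zero (Nat.cast_ne_zero.2 he0) (irr_one_ne_zero hθ) h1.symm
  obtain ⟨φ, n, hn0, hn⟩ := exists_irr_constituent hF hF0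
  obtain ⟨a, ha⟩ := isCharacter_classInner_nat
    (CharInd.isCharacter_res Z (isCharacter_of_irr φ.2)) ⟨θ, hθ⟩
  have hmult : (e : ℂ) * a = ((p ^ s * n : ℕ) : ℂ) := by
    have h1 := classInner_of_vanish Z (g := (φ : H → ℂ)) hFv
    rw [hn, show (fun z : Z => F z) = (e : ℂ) • θ from funext hFZ, classInner_smul_left,
      ← CharInd.classInner_swap (fun z : Z => (φ : H → ℂ) z) θ, ha, Complex.conj_natCast,
      ← Z.card_mul_index, hidx] at h1
    push_cast at h1 ⊢
    have hZ : (Nat.card Z : ℂ) ≠ 0 := card_ne_zero_complex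
    have hps : ((p : ℂ) ^ s) ≠ 0 := pow_ne_zero _ (Nat.cast_ne_zero.2 hp.ne_zero)
    field_simp at h1
    linear_combination -h1
  have hmult' : e * a = p ^ s * n := by exact_mod_cast hmult
  have ha0 : 0 < a := Nat.pos_of_ne_zero fun h => by
    rw [h, mul_zero, eq_comm, mul_eq_zero] at hmult'
    rcases hmult' with h | h
    · exact pow_ne_zero s hp.ne_zero h
    · omega
  have hcl := CharInd.clifford Z φ.2 hθ (by rw [ha]; exact Nat.cast_ne_zero.2 ha0.ne')
  have hsingle : CharInd.conjClass Z θ = {θ} := by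
    ext ψ
    simp [CharInd.mem_conjClass, hinv]
  rw [hsingle, Finset.sum_singleton, ha] at hcl
  have hφZ : ∀ z : Z, (φ : H → ℂ) z = (a : ℂ) * θ z := fun z => congrFun hcl z
  -- the bound
  have hle : a ^ 2 ≤ Z.index := by
    have h1 := classInner_irr_self φ.2
    have h2 := classInner_irr_self hθ
    simp only [classInner] at h1 h2
    rw [inv_mul_eq_iff_eq_mul₀ card_ne_zero_complex, mul_one] at h1 h2
    have h3 : ((Nat.card H : ℝ) : ℂ) = ((∑ g : H, ‖(φ : H → ℂ) g‖ ^ 2 : ℝ) : ℂ) := by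
      push_cast
      rw [← h1]
      exact Finset.sum_congr rfl fun g _ => Complex.mul_conj' _
    have h4 : ((Nat.card Z : ℝ) : ℂ) = ((∑ z : Z, ‖θ z‖ ^ 2 : ℝ) : ℂ) := by
      push_cast
      rw [← h2]
      exact Finset.sum_congr rfl fun g _ => Complex.mul_conj' _
    rw [Complex.ofReal_inj] at h3 h4
    have h5 : ∑ z : Z, ‖(φ : H → ℂ) z‖ ^ 2 ≤ ∑ g : H, ‖(φ : H → ℂ) g‖ ^ 2 := by
      rw [← Finset.sum_subtype (Finset.univ.filter fun h : H => h ∈ Z) (fun h => by simp)
        (fun h => ‖(φ : H → ℂ) h‖ ^ 2)]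
      exact Finset.sum_le_sum_of_subset_of_nonneg (Finset.subset_univ _) fun _ _ _ => sq_nonneg _
    simp only [hφZ, norm_mul, Complex.norm_natCast, mul_pow, ← Finset.mul_sum] at h5
    rw [← h3, ← h4, ← Z.card_mul_index, Nat.cast_mul, mul_comm] at h5
    have h6 := le_of_mul_le_mul_left h5 (Nat.cast_pos.2 Nat.card_pos)
    exact_mod_cast h6
  have heq : a ^ 2 = Z.index := by
    refine le_antisymm hle ?_
    rw [hidx]
    refine Nat.le_of_dvd (pow_pos ha0 2) ?_
    have h1 : p ^ s * (a ^ 2 * m) = p ^ s * (p ^ s * n ^ 2) := by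
      calc p ^ s * (a ^ 2 * m) = (e * a) ^ 2 := by rw [mul_pow, he]; ring
        _ = _ := by rw [hmult']; ring
    have h2 := Nat.eq_of_mul_eq_mul_left (pow_pos hp.pos s) h1
    exact ((hp.coprime_iff_not_dvd.2 hm).pow_left s).dvd_of_dvd_mul_right ⟨n ^ 2, h2⟩
  exact ⟨φ, a, φ.2, heq, ha0, hφZ, fun h hh => BlkChar.fullyRamified_vanish φ.2 hθ heq hφZ hh⟩

/-- Conjugation does not change the multiplicity over an invariant character. -/
theorem classInner_conj_res [Fintype H] (Z R : Subgroup H) [Z.Normal] [R.Normal] [Fintype Z]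
    (hZR : Z ≤ R) {θ : Z → ℂ} (hinv : ∀ g : H, CharInd.conjChar Z g θ = θ) (x : H) (ξ : R → ℂ) :
    classInner (fun z : Z => CharInd.conjChar R x ξ ⟨z, hZR z.2⟩) θ =
      classInner (fun z : Z => ξ ⟨z, hZR z.2⟩) θ := by
  conv_lhs => rw [← hinv x]
  exact CharInd.classInner_conjChar Z x (fun z : Z => ξ ⟨z, hZR z.2⟩) θ

/-- Over a fully ramified character, a cyclic quotient acts regularly. -/
theorem regular_orbit [Fintype H] (Z R : Subgroup H) [Z.Normal] [R.Normal] [Fintype Z] [Fintype R]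
    (hZR : Z ≤ R) (hcyc : IsCyclic (H ⧸ R)) {θ : Z → ℂ} (hθ : IsIrrCharacter Z θ)
    (hinv : ∀ g : H, CharInd.conjChar Z g θ = θ) {φ : H → ℂ} {a : ℕ} (hφ : IsIrrCharacter H φ)
    (ha : a ^ 2 = Z.index) (hφZ : ∀ z : Z, φ z = (a : ℂ) * θ z) :
    ∃ ψ : R → ℂ, IsIrrCharacter R ψ ∧ classInner (fun z : Z => ψ ⟨z, hZR z.2⟩) θ ≠ 0 ∧
      CharInd.conjStab R ψ = R ∧
      ∀ ξ : R → ℂ, IsIrrCharacter R ξ → classInner (fun z : Z => ξ ⟨z, hZR z.2⟩) θ ≠ 0 →
        ∃ x : H, ξ = CharInd.conjChar R x ψ := by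
  classical
  have hvan : ∀ h, h ∉ Z → φ h = 0 := fun h hh =>
    BlkChar.fullyRamified_vanish hφ hθ ha hφZ hh
  have ha0 : a ≠ 0 := by rintro rfl; exact Subgroup.index_ne_zero_of_finite (ha.symm.trans (by simp))
  obtain ⟨ψ, b, hψ, hb0, hdec, hdeg⟩ := CharInd.clifford_exists R hφ
  set O := CharInd.conjClass R ψ with hO
  let ρ : (R → ℂ) → (Z → ℂ) := fun ξ z => ξ ⟨z, hZR z.2⟩
  have hnat : ∀ ξ : R → ℂ, IsIrrCharacter R ξ → ∃ n : ℕ, classInner (ρ ξ) θ = n := fun ξ hξ =>
    isCharacter_classInner_nat (CharInd.isCharacter_comp (Subgroup.inclusion hZR)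
      (isCharacter_of_irr hξ)) ⟨θ, hθ⟩
  -- inner products of the restriction to a subgroup containing Z
  have key : ∀ (T : Subgroup H) [Fintype T] (hZT : Z ≤ T) (ξ : T → ℂ) (n : ℕ),
      classInner (fun z : Z => ξ ⟨z, hZT z.2⟩) θ = n →
      classInner (fun t : T => φ t) ξ =
        (Nat.card T : ℂ)⁻¹ * ((Nat.card Z : ℂ) * ((a : ℂ) * n)) := by
    intro T _ hZT ξ n hn
    simp only [classInner] at hn ⊢
    congr 1
    rw [inv_mul_eq_iff_eq_mul₀ card_ne_zero_complex] at hn
    calc ∑ t : T, φ t * conj (ξ t)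
        = ∑ t ∈ Finset.univ.filter (fun t : T => (t : H) ∈ Z), φ t * conj (ξ t) :=
          (Finset.sum_subset (Finset.subset_univ _) fun t _ ht => by
            rw [hvan t (fun hz => ht (Finset.mem_filter.2 ⟨Finset.mem_univ _, hz⟩)), zero_mul]).symm
      _ = ∑ z : Z, φ z * conj (ξ ⟨z, hZT z.2⟩) := by
          refine Finset.sum_bij (fun t ht => ⟨(t : H), (Finset.mem_filter.1 ht).2⟩)
            (fun _ _ => Finset.mem_univ _)
            (fun _ _ _ _ h => Subtype.ext (congrArg (fun z : Z => (z : H)) h))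
            (fun z _ => ⟨⟨z, hZT z.2⟩, Finset.mem_filter.2 ⟨Finset.mem_univ _, z.2⟩, rfl⟩)
            (fun _ _ => rfl)
      _ = (a : ℂ) * conj (∑ z : Z, ξ ⟨z, hZT z.2⟩ * conj (θ z)) := by
          simp only [hφZ, map_sum, map_mul, Complex.conj_conj, Finset.mul_sum]
          exact Finset.sum_congr rfl fun z _ => by ring
      _ = _ := by rw [hn, map_mul, Complex.conj_natCast, Complex.conj_natCast]; ring
  obtain ⟨d, hd⟩ := hnat ψ hψ
  have hOd : ∀ ξ ∈ O, classInner (ρ ξ) θ = d := by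
    intro ξ hξ
    obtain ⟨x, rfl⟩ := (CharInd.mem_conjClass R).1 hξ
    rw [← hd]; exact classInner_conj_res Z R hZR hinv x ψ
  have habk : (a : ℂ) = (b : ℂ) * O.card * d := by
    have h1 : ρ (fun r : R => φ r) = (a : ℂ) • θ := funext hφZ
    have h2 := congrArg (fun f => classInner (ρ f) θ) hdec
    rw [h1, classInner_smul_left, classInner_irr_self hθ, mul_one] at h2
    have h3 : ρ ((b : ℂ) • ∑ ξ ∈ O, ξ) = (b : ℂ) • ∑ ξ ∈ O, ρ ξ := by
      funext z; simp [ρ, Finset.sum_apply]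
    rw [h3, classInner_smul_left, classInner_sum_left, Finset.sum_congr rfl hOd,
      Finset.sum_const, nsmul_eq_mul, ← mul_assoc] at h2
    exact h2
  have hd0 : d ≠ 0 := fun h => Nat.cast_ne_zero.2 ha0 (by rw [habk, h]; simp)
  have hψO : ψ ∈ O := (CharInd.mem_conjClass R).2 ⟨1, (CharInd.conjChar_one R ψ).symm⟩
  have hin : ∀ ξ : R → ℂ, IsIrrCharacter R ξ →
      classInner (fun r : R => φ r) ξ = if ξ ∈ O then (b : ℂ) else 0 := by
    intro ξ hξ
    rw [hdec, classInner_smul_left, classInner_sum_left]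
    split_ifs with h
    · rw [Finset.sum_eq_single_of_mem ξ h fun η hη hne => ?_, classInner_irr_self hξ, mul_one]
      obtain ⟨x, rfl⟩ := (CharInd.mem_conjClass R).1 hη
      exact classInner_irr_ne (CharInd.conjChar_irr R x hψ) hξ hne
    · rw [Finset.sum_eq_zero fun η hη => ?_, mul_zero]
      obtain ⟨x, rfl⟩ := (CharInd.mem_conjClass R).1 hη
      exact classInner_irr_ne (CharInd.conjChar_irr R x hψ) hξ fun e => h (e ▸ hη)
  have hall : ∀ ξ : R → ℂ, IsIrrCharacter R ξ → classInner (ρ ξ) θ ≠ 0 →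
      ∃ x : H, ξ = CharInd.conjChar R x ψ := by
    intro ξ hξ h0
    obtain ⟨n, hn⟩ := hnat ξ hξ
    have h1 := key R hZR ξ n hn
    rw [hin ξ hξ] at h1
    by_cases h : ξ ∈ O
    · exact (CharInd.mem_conjClass R).1 h
    · rw [if_neg h] at h1
      exfalso
      refine mul_ne_zero (inv_ne_zero card_ne_zero_complex) (mul_ne_zero card_ne_zero_complex
        (mul_ne_zero (Nat.cast_ne_zero.2 ha0) ?_)) h1.symm
      rw [hn] at h0
      exact h0
  refine ⟨ψ, hψ, by rw [hd]; exact Nat.cast_ne_zero.2 hd0, ?_, hall⟩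
  set I := CharInd.conjStab R ψ with hI
  have hRI : R ≤ I := CharInd.le_conjStab R (irr_isClassFunction hψ)
  letI := Fintype.ofFinite I
  haveI : IsCyclic (I ⧸ R.subgroupOf I) := by
    haveI := hcyc
    refine isCyclic_of_injective (QuotientGroup.map _ R I.subtype (fun x hx => hx)) ?_
    rw [← MonoidHom.ker_eq_bot_iff, eq_bot_iff]
    intro q
    refine QuotientGroup.induction_on q fun x hx => ?_
    have hx' : (((x : I) : H) : H ⧸ R) = 1 := hx
    rw [QuotientGroup.eq_one_iff] at hx'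
    exact (QuotientGroup.eq_one_iff _).2 hx'
  let ε := Subgroup.subgroupOfEquivOfLe hRI
  letI := Fintype.ofFinite (R.subgroupOf I)
  obtain ⟨k, σ, hσ, hσχ⟩ := CharInd.irr_comp_surjective ε.toMonoidHom ε.surjective hψ
  haveI := hσ
  obtain ⟨τ, hτ⟩ := CharDeep.exists_extension_of_cyclic (R.subgroupOf I) σ
    (fun g n => by
      rw [hσχ]
      have h1 := congrFun ((CharInd.mem_conjStab R).1 g.2) (ε n)
      rw [CharInd.conjChar_apply] at h1
      exact h1) inferInstance
  have hη : IsIrrCharacter I τ.character :=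
    ⟨k, τ, CharExt.isIrreducible_of_restrict _ τ σ hτ, rfl⟩
  have hηR : ∀ r : R, τ.character ⟨r, hRI r.2⟩ = ψ r := fun r => by
    have h1 : τ.character (⟨⟨r, hRI r.2⟩, r.2⟩ : R.subgroupOf I) = σ.character ⟨⟨r, hRI r.2⟩, r.2⟩ :=
      congrArg (LinearMap.trace ℂ (Fin k → ℂ)) (hτ ⟨⟨r, hRI r.2⟩, r.2⟩)
    rw [hσχ] at h1
    exact h1
  have hcon : classInner (Cfsg.indFun I τ.character) φ ≠ 0 := by
    rw [CharInd.classInner_indFun_left I _ (irr_isClassFunction hφ), ← CharInd.classInner_swap]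
    refine fun h => ?_
    rw [map_eq_zero] at h
    have h1 := key I (hZR.trans hRI) τ.character d (by
      rw [← hd]
      exact congrArg (fun f => classInner f θ) (funext fun z => hηR ⟨z, hZR z.2⟩))
    rw [h] at h1
    exact mul_ne_zero (inv_ne_zero card_ne_zero_complex) (mul_ne_zero card_ne_zero_complex
      (mul_ne_zero (Nat.cast_ne_zero.2 ha0) (Nat.cast_ne_zero.2 hd0))) h1.symm
  obtain ⟨nψ, hnψ0, hnψ⟩ := irr_one_pos hψ
  have hle : b * O.card * nψ ≤ I.index * nψ := by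
    refine constituent_one_le (CharInd.isCharacter_indFun I (isCharacter_of_irr hη)) hφ hcon
      (by rw [hdeg, hnψ]; push_cast; ring) ?_
    rw [CharInd.indFun_one_apply,
      show τ.character 1 = ψ 1 from hηR 1, hnψ]
    push_cast; ring
  have hb1 : b = 1 := by
    rw [CharInd.card_conjClass] at hle
    have h1 := Nat.le_of_mul_le_mul_right hle hnψ0
    have h2 : b * I.index ≤ 1 * I.index := by rw [one_mul]; exact h1
    have := Nat.le_of_mul_le_mul_right h2 (Nat.pos_of_ne_zero Subgroup.index_ne_zero_of_finite)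
    omega
  -- b² k = |H : R|
  have h1 := key R hZR ψ d hd
  rw [hin ψ hψ, if_pos hψO, hb1, Nat.cast_one] at h1
  have hk : I.index = R.index := by
    rw [hb1, Nat.cast_one, one_mul, CharInd.card_conjClass] at habk
    have hRn : (Nat.card R : ℂ) ≠ 0 := card_ne_zero_complex
    field_simp at h1
    rw [habk] at h1
    have h2 : Nat.card R = Nat.card Z * (I.index * d) * d := by rw [hI]; exact_mod_cast h1
    have h3 : a = I.index * d := by exact_mod_cast habk
    have h4 : Nat.card R * R.index = Nat.card R * I.index := by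
      rw [R.card_mul_index, ← Z.card_mul_index, ← ha, h3, h2]
      ring
    exact (Nat.eq_of_mul_eq_mul_left Nat.card_pos h4).symm
  exact le_antisymm (fun x hx => by
    have h5 := Subgroup.relIndex_mul_index hRI
    rw [hk] at h5
    exact Subgroup.relIndex_eq_one.1 (Nat.eq_of_mul_eq_mul_right
      (Nat.pos_of_ne_zero Subgroup.index_ne_zero_of_finite) (h5.trans (one_mul _).symm)) hx) hRI

end Cfsg.Agent.CentralType
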